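import Cfsg.Agent.Lib.Helper17.E6I.DefsE

set_option autoImplicit false

namespace Cfsg.Agent.Lib.Helper74.E6I

open Cfsg.Lie Cfsg.Agent.Lib.Helper18 Cfsg.Agent.Lib.Helper17 Cfsg.Agent.Lib.Helper36
  Cfsg.Agent.Lib.Helper6 Matrix Cfsg.Agent.Lib.Helper17.E6I Pointwise

variable {F : Type*} [Field F]

/-- [E10] copy of `G2I.conj_into_U` (Lib/Helper17/G2Inv3.lean) -/
theorem conj_into_U [Fintype F] [CharP F 2] {g : GL chevE6.Idx F} (hg : g ∈ chevE6.group F)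
    (ho : orderOf g = 2) : ∃ h ∈ chevE6.group F, h * g * h⁻¹ ∈ chevE6.posUnipotent F := by
  have : Fact (Nat.Prime 2) := ⟨Nat.prime_two⟩
  obtain ⟨P, hP⟩ := exists_sylow_U (F := F) (D := chevE6) 2 (by simp)
  let g' : ↥(chevE6.group F) := ⟨g, hg⟩
  have hpg : IsPGroup 2 (Subgroup.zpowers g') := by
    apply IsPGroup.of_card (n := 1)
    rw [Nat.card_zpowers, pow_one, ← ho]
    exact Subgroup.orderOf_mk g hg
  obtain ⟨Q, hQ⟩ := hpg.exists_le_sylow
  obtain ⟨k, hk⟩ := MulAction.exists_smul_eq ↥(chevE6.group F) Q P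
  refine ⟨k, k.2, ?_⟩
  have h1 : g' ∈ (Q : Subgroup _) := hQ (Subgroup.mem_zpowers g')
  have h2 : MulAut.conj k • g' ∈ MulAut.conj k • (Q : Subgroup ↥(chevE6.group F)) :=
    Subgroup.smul_mem_pointwise_smul _ _ _ h1
  rw [← Sylow.pointwise_smul_def, ← Sylow.smul_def, hk, hP, Subgroup.mem_subgroupOf] at h2
  simpa [MulAut.smul_def, MulAut.conj_apply] using h2

end Cfsg.Agent.Lib.Helper74.E6I
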